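import Mathlib
import Cfsg.Agent.JW.Comm
import Cfsg.Agent.H37.ZMain

/-!
# A simple group with TI self-centralizing abelian Sylow `p`-subgroups of order `q`, `q + 1` of them, and
order `q (q+1) k`, `2k + 1 = q`, is PSL(2,q).  (helper2; the proofs are those of Cfsg.Agent.JW.Zass)
-/

set_option autoImplicit false

namespace Cfsg.Agent.H2.TIS

open Subgroup MulAction Pointwise

open Cfsg.Agent.JW (mem_smul exists_smul)

structure Hyp (G : Type*) [Group G] (p q : ℕ) : Prop where
  pp : p.Prime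
  q5 : 5 ≤ q
  comm : ∀ P : Sylow p G, ∀ x ∈ P, ∀ y ∈ P, y * x = x * y
  cent_eq : ∀ {P : Sylow p G} {x : G}, x ∈ P → x ≠ 1 → centralizer ({x} : Set G) = P
  card_syl : ∀ P : Sylow p G, Nat.card P = q
  card_points : ∀ P : Sylow p G, Nat.card (Sylow p G) = q + 1
  cardG : ∃ k, 2 * k + 1 = q ∧ Nat.card G = q * (q + 1) * k
  simple : IsSimpleGroup G

section

variable {G : Type*} [Group G] [Finite G] {p q : ℕ}

theorem Hyp.k_eq (h : Hyp G p q) (P : Sylow p G) :
    ∃ k, 2 * k + 1 = q ∧ Nat.card (normalizer ((P : Subgroup G) : Set G)) = q * k := by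
  haveI := Fact.mk h.pp
  obtain ⟨k, hk, hG⟩ := h.cardG
  refine ⟨k, hk, ?_⟩
  have h1 := Subgroup.card_mul_index (normalizer ((P : Subgroup G) : Set G))
  have h2 : (normalizer ((P : Subgroup G) : Set G)).index = q + 1 := by
    rw [← h.card_points P]
    exact (Sylow.card_eq_index_normalizer P).symm
  rw [h2, hG] at h1
  apply Nat.eq_of_mul_eq_mul_right (show 0 < q + 1 by omega)
  rw [h1]; ring

theorem Hyp.mem_of_fix (h : Hyp G p q) {P Q : Sylow p G} {x : G} (hx : x ∈ P) (hQ : x • Q = Q) :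
    x ∈ Q := by
  haveI := Fact.mk h.pp
  have h1 : x ∈ (P : Subgroup G) ⊓ normalizer Q :=
    ⟨hx, Sylow.smul_eq_iff_mem_normalizer.1 hQ⟩
  rw [IsPGroup.inf_normalizer_sylow P.isPGroup' Q] at h1
  exact h1.2

theorem Hyp.eq_of_fix (h : Hyp G p q) {P Q : Sylow p G} {x : G} (hx : x ∈ P) (hx1 : x ≠ 1)
    (hQ : x • Q = Q) : Q = P := by
  have h1 := h.mem_of_fix hx hQ
  apply Sylow.ext
  rw [← h.cent_eq hx hx1, ← h.cent_eq h1 hx1]

/-- `P` is regular on the other points -/
theorem Hyp.reg (h : Hyp G p q) (P : Sylow p G) {Q R : Sylow p G} (hQ : Q ≠ P) (hR : R ≠ P) :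
    ∃! x : (P : Subgroup G), (x : G) • Q = R := by
  classical
  haveI := Fact.mk h.pp
  haveI : Fintype (Sylow p G) := Fintype.ofFinite _
  have hfix : ∀ x ∈ P, x • P = P := fun x hx =>
    Sylow.smul_eq_iff_mem_normalizer.2 (Subgroup.le_normalizer hx)
  let f : ↥(P : Subgroup G) → {S : Sylow p G // S ≠ P} := fun x => ⟨(x : G) • Q, fun h1 => hQ
    (smul_left_cancel _ (h1.trans (hfix x x.2).symm))⟩
  have hinj : Function.Injective f := by
    intro x y hxy
    have h1 : (x : G) • Q = (y : G) • Q := congrArg Subtype.val hxy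
    by_contra hne
    have h2 : ((y : G)⁻¹ * (x : G)) • Q = Q := by rw [mul_smul, h1, inv_smul_smul]
    have h3 : (y : G)⁻¹ * (x : G) ≠ 1 := by
      intro h4
      rw [inv_mul_eq_one] at h4
      exact hne (Subtype.ext h4.symm)
    exact hQ (h.eq_of_fix (P := P) (P.mul_mem (P.inv_mem y.2) x.2) h3 h2)
  have hcard : Nat.card (P : Subgroup G) = Nat.card {S : Sylow p G // S ≠ P} := by
    rw [Nat.card_eq_fintype_card (α := {S : Sylow p G // S ≠ P}), Fintype.card_subtype_compl,
      Fintype.card_subtype_eq, ← Nat.card_eq_fintype_card, h.card_points P]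
    exact h.card_syl P
  have hbij : Function.Bijective f := (Nat.bijective_iff_injective_and_card f).2 ⟨hinj, hcard⟩
  obtain ⟨x, hx, hu⟩ := hbij.existsUnique ⟨R, hR⟩
  refine ⟨x, congrArg Subtype.val hx, fun y hy => hu y (Subtype.ext hy)⟩

theorem Hyp.fix_self {P : Sylow p G} {x : G} (hx : x ∈ P) : x • P = P :=
  Sylow.smul_eq_iff_mem_normalizer.2 (Subgroup.le_normalizer hx)

/-- only the identity fixes three points -/
theorem Hyp.three (h : Hyp G p q) {P Q R : Sylow p G} (hPQ : P ≠ Q) (hQR : Q ≠ R) (hPR : P ≠ R)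
    {g : G} (h1 : g • P = P) (h2 : g • Q = Q) (h3 : g • R = R) : g = 1 := by
  obtain ⟨⟨x, hx⟩, hxQ, -⟩ := h.reg P hPQ.symm hPR.symm
  simp only at hxQ
  have hx1 : x ≠ 1 := by
    rintro rfl
    rw [one_smul] at hxQ
    exact hQR hxQ
  have hgx : g * x * g⁻¹ ∈ P := by
    rw [← h1, mem_smul]
    have h9 : g⁻¹ * (g * x * g⁻¹) * g = x := by group
    rw [h9]
    exact hx
  have h4 : (g * x * g⁻¹) • Q = R := by
    have h5 : g⁻¹ • Q = Q := by
      rw [inv_smul_eq_iff, h2]
    rw [mul_smul, h5, mul_smul, hxQ, h3]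
  have h6 : g * x * g⁻¹ = x := by
    have := (h.reg P hPQ.symm hPR.symm).unique (y₁ := ⟨g * x * g⁻¹, hgx⟩) (y₂ := ⟨x, hx⟩) h4 hxQ
    exact congrArg Subtype.val this
  have h7 : g ∈ centralizer ({x} : Set G) := by
    rw [Subgroup.mem_centralizer_singleton_iff]
    rw [mul_inv_eq_iff_eq_mul] at h6
    exact h6
  rw [h.cent_eq hx hx1] at h7
  by_contra hg
  exact hPQ (h.eq_of_fix (P := P) h7 hg h2).symm

theorem Hyp.exists_ne (h : Hyp G p q) (P : Sylow p G) : ∃ Q : Sylow p G, Q ≠ P := by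
  haveI := Fact.mk h.pp
  haveI : Nontrivial (Sylow p G) := by
    rw [← Finite.one_lt_card_iff_nontrivial, h.card_points P]
    have := h.q5
    omega
  exact _root_.exists_ne P

theorem Hyp.card_stab2 (h : Hyp G p q) {P Q : Sylow p G} (hPQ : P ≠ Q) {k : ℕ} (hk : 2 * k + 1 = q) :
    Nat.card (H34.stab2 G P Q) = k := by
  haveI := Fact.mk h.pp
  obtain ⟨k', hk', hN⟩ := h.k_eq P
  have hkk : k' = k := by omega
  subst hkk
  have hq0 : 0 < q := by have := h.q5; omega
  apply Nat.eq_of_mul_eq_mul_left hq0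
  rw [← hN]
  have h1 : Nat.card (P : Subgroup G) * Nat.card (H34.stab2 G P Q) =
      Nat.card (normalizer ((P : Subgroup G) : Set G)) := by
    rw [← Nat.card_prod]
    have hmem : ∀ z : ↥(P : Subgroup G) × ↥(H34.stab2 G P Q), (z.1 : G) * (z.2 : G) ∈
        normalizer ((P : Subgroup G) : Set G) := by
      intro z
      apply Subgroup.mul_mem
      · exact Subgroup.le_normalizer z.1.2
      · exact Sylow.smul_eq_iff_mem_normalizer.1 (H34.mem_stab2.1 z.2.2).1
    apply Nat.card_congr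
    refine Equiv.ofBijective (fun z => ⟨(z.1 : G) * (z.2 : G), hmem z⟩) ⟨?_, ?_⟩
    · rintro ⟨⟨x, hx⟩, ⟨g, hg⟩⟩ ⟨⟨x', hx'⟩, ⟨g', hg'⟩⟩ he
      have he1 : x * g = x' * g' := congrArg Subtype.val he
      have hg1 := (H34.mem_stab2.1 hg)
      have hg2 := (H34.mem_stab2.1 hg')
      have h2 : x • Q = x' • Q := by
        have h3 : (x * g) • Q = (x' * g') • Q := by rw [he1]
        rw [mul_smul, mul_smul, hg1.2, hg2.2] at h3
        exact h3
      have hne : x' • Q ≠ P := by
        intro h3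
        have h4 := Hyp.fix_self (P := P) hx'
        rw [← h4] at h3
        exact hPQ (smul_left_cancel _ h3).symm
      have h3 := (h.reg P hPQ.symm hne).unique (y₁ := ⟨x, hx⟩) (y₂ := ⟨x', hx'⟩) h2 rfl
      have h4 : x = x' := congrArg Subtype.val h3
      subst h4
      have h5 := mul_left_cancel he1
      subst h5
      rfl
    · rintro ⟨g, hg⟩
      have hgP := Sylow.smul_eq_iff_mem_normalizer.2 hg
      have hne : g • Q ≠ P := by
        intro h3
        rw [← hgP] at h3
        exact hPQ (smul_left_cancel _ h3).symm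
      obtain ⟨⟨x, hx⟩, hxQ, -⟩ := h.reg P hPQ.symm hne
      simp only at hxQ
      have hm : x⁻¹ * g ∈ H34.stab2 G P Q := by
        rw [H34.mem_stab2]
        constructor
        · rw [mul_smul, hgP, inv_smul_eq_iff, Hyp.fix_self hx]
        · rw [mul_smul, ← hxQ, inv_smul_smul]
      refine ⟨⟨⟨x, hx⟩, ⟨x⁻¹ * g, hm⟩⟩, ?_⟩
      apply Subtype.ext
      show x * (x⁻¹ * g) = g
      group
  rw [← h1]
  congr 1
  exact (h.card_syl P).symm

theorem Hyp.zass (h : Hyp G p q) : Cfsg.IsZassenhausGroup G (Sylow p G) := by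
  classical
  haveI := Fact.mk h.pp
  obtain ⟨P⟩ : Nonempty (Sylow p G) := inferInstance
  haveI : Fintype (Sylow p G) := Fintype.ofFinite _
  have hq5 := h.q5
  have hc := h.card_points P
  rw [Nat.card_eq_fintype_card] at hc
  refine ⟨⟨?_⟩, ?_, ?_, ?_, ?_⟩
  · intro g g' hgg
    obtain ⟨a, b, c, hab, hac, hbc⟩ := Fintype.two_lt_card_iff.1 (show 2 < Fintype.card (Sylow p G) by omega)
    have h1 : ∀ S : Sylow p G, (g'⁻¹ * g) • S = S := fun S => by rw [mul_smul, hgg, inv_smul_smul]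
    have h2 := h.three hab hbc hac (h1 a) (h1 b) (h1 c)
    rw [inv_mul_eq_one] at h2
    exact h2.symm
  · rw [MulAction.is_two_pretransitive_iff]
    intro a b c d hab hcd
    obtain ⟨g, hg⟩ := exists_smul a c
    have h1 : g • b ≠ c := by
      rw [← hg]
      intro h2
      exact hab (smul_left_cancel _ h2).symm
    obtain ⟨x, hx, -⟩ := h.reg c h1 hcd.symm
    refine ⟨(x : G) * g, ?_, ?_⟩
    · rw [mul_smul, hg, Hyp.fix_self x.2]
    · rw [mul_smul, hx]
  · intro g a b c hab hbc hac h1 h2 h3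
    exact h.three hab hbc hac h1 h2 h3
  · obtain ⟨Q, hQ⟩ := h.exists_ne P
    obtain ⟨k, hk, -⟩ := h.k_eq P
    have h1 := h.card_stab2 hQ.symm hk
    haveI : Nontrivial (H34.stab2 G P Q) := by
      rw [← Finite.one_lt_card_iff_nontrivial, h1]
      omega
    obtain ⟨g, hg⟩ := _root_.exists_ne (1 : H34.stab2 G P Q)
    exact ⟨g, fun h2 => hg (Subtype.ext h2), P, Q, hQ.symm, (H34.mem_stab2.1 g.2).1,
      (H34.mem_stab2.1 g.2).2⟩
  · intro N hN hT
    haveI := h.simple
    rcases hN.eq_bot_or_eq_top with h1 | h1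
    · exfalso
      subst h1
      obtain ⟨Q, hQ⟩ := h.exists_ne P
      obtain ⟨⟨g, hg⟩, hgP⟩ := hT.exists_smul_eq P Q
      rw [Subgroup.mem_bot] at hg
      subst hg
      apply hQ
      rw [← hgP]
      exact (one_smul _ _)
    · refine ⟨P, fun h2 => ?_⟩
      obtain ⟨x, hx, hx1⟩ : ∃ x ∈ (P : Subgroup G), x ≠ 1 := by
        by_contra hcon
        push Not at hcon
        have h3 : Nat.card P = 1 := by
          rw [Subgroup.card_eq_one, eq_bot_iff]
          intro x hx
          rw [Subgroup.mem_bot]; exact hcon x hx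
        rw [h.card_syl P] at h3
        omega
      have hxN : x ∈ N := by rw [h1]; exact Subgroup.mem_top x
      have h3 : (⟨x, hxN⟩ : N) ∈ MulAction.stabilizer N P := by
        rw [MulAction.mem_stabilizer_iff]
        exact Hyp.fix_self hx
      rw [h2, Subgroup.mem_bot] at h3
      exact hx1 (congrArg Subtype.val h3)

/-- the identification -/
theorem Hyp.psl (h : Hyp G p q) : ∃ (K : Type) (_ : Field K) (_ : Fintype K), Nat.card K = q ∧
    Nonempty (G ≃* Matrix.ProjectiveSpecialLinearGroup (Fin 2) K) := by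
  haveI := Fact.mk h.pp
  obtain ⟨P⟩ : Nonempty (Sylow p G) := inferInstance
  obtain ⟨Q, hQ⟩ := h.exists_ne P
  have hker : H37.ZT.IsKer G P (P : Subgroup G) :=
    { le := fun x hx => Hyp.fix_self hx
      norm := by
        intro g hg u hu
        have h1 : g • P = P := hg
        show g * u * g⁻¹ ∈ P
        rw [← h1, mem_smul]
        have h2 : g⁻¹ * (g * u * g⁻¹) * g = u := by group
        rw [h2]
        exact hu
      reg := fun y z hy hz => h.reg P hy hz }
  obtain ⟨k, hk, -⟩ := h.k_eq P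
  have h1 := h.card_stab2 hQ.symm hk
  have h2 := h.card_points P
  have h5 := h.q5
  rcases H37.ZT.zass_abelian h.zass hQ.symm hker (fun x hx y hy => (h.comm P x hx y hy).symm) with h3 | ⟨-, K, iF, iFt, -, hc, he⟩
  · exfalso
    rw [h1, h2] at h3
    omega
  · refine ⟨K, iF, iFt, ?_, he⟩
    rw [h2] at hc
    omega

end

end Cfsg.Agent.H2.TIS
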